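import Cfsg.Agent.H726.Four.Orb
import Cfsg.Agent.S0173

/-!
# Brauer's permutation lemma for orbits (helper118, TEAM K547, task QE3)

`T ≤ G` abelian, `N ≤ N_G(T)`, `β` an automorphism of `G` fixing `T` and `N`.

* `twisted_burnside` : `#{(g, x) | g • b x = x} = #{b-fixed orbits} * |B|`;
* `exists_fix_orb` : `m` elements of `T` pairwise not `N`-conjugate, each mapped by `β` to an `N`-conjugate, give `m`
  irreducible characters of `T` with the same property.
-/

set_option autoImplicit false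
set_option linter.unusedSectionVars false

open scoped ComplexConjugate
open Cfsg

namespace Cfsg.Agent.H118.K547

open Cfsg.Agent.H726.Four Cfsg.Agent.Characters.Core

universe u

section burnside

variable {B X : Type*} [Group B] [MulAction B X]

/-- the points with a `b`-fixed orbit -/
def st (b : X → X) (hb : ∀ (g : B) (x : X), b (g • x) ∈ MulAction.orbit B (b x)) : SubMulAction B X where
  carrier := {x | b x ∈ MulAction.orbit B x}
  smul_mem' g x hx := by
    have h1 : b (g • x) ∈ MulAction.orbit B (b x) := hb g x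
    rw [MulAction.orbit_eq_iff.2 hx] at h1
    have h2 : MulAction.orbit B (g • x) = MulAction.orbit B x := MulAction.orbit_eq_iff.2 ⟨g, rfl⟩
    change b (g • x) ∈ MulAction.orbit B (g • x)
    rw [h2]
    exact h1

/-- **The twisted lemma of Burnside.** -/
theorem twisted_burnside [Finite B] [Finite X] (b : X → X)
    (hb : ∀ (g : B) (x : X), b (g • x) ∈ MulAction.orbit B (b x)) :
    Nat.card {p : B × X // p.1 • b p.2 = p.2} =
      Nat.card (Quotient (MulAction.orbitRel B (st b hb))) * Nat.card B := by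
  classical
  rw [← Nat.card_prod, ← Nat.card_congr (MulAction.sigmaFixedByEquivOrbitsProdGroup B (st b hb))]
  have hst : ∀ x : st b hb, ∃ g : B, g • (x : X) = b x := fun x => x.2
  choose k hk using hst
  refine Nat.card_congr
    { toFun := fun p => ⟨p.1.1 * k ⟨p.1.2, ?_⟩, ⟨⟨p.1.2, ?_⟩, ?_⟩⟩
      invFun := fun q => ⟨(q.1 * (k q.2.1)⁻¹, (q.2.1 : X)), ?_⟩
      left_inv := ?_
      right_inv := ?_ }
  · exact ⟨p.1.1⁻¹, by
      have := p.2
      change p.1.1⁻¹ • p.1.2 = b p.1.2
      nth_rewrite 1 [← this]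
      rw [inv_smul_smul]⟩
  · exact ⟨p.1.1⁻¹, by
      have := p.2
      change p.1.1⁻¹ • p.1.2 = b p.1.2
      nth_rewrite 1 [← this]
      rw [inv_smul_smul]⟩
  · rw [MulAction.mem_fixedBy]
    apply Subtype.ext
    rw [SubMulAction.val_smul, mul_smul, hk]
    exact p.2
  · have h1 : q.1 • q.2.1 = q.2.1 := q.2.2
    have h2 : q.1 • (q.2.1 : X) = q.2.1 := by
      rw [← SubMulAction.val_smul, h1]
    change (q.1 * (k q.2.1)⁻¹) • b (q.2.1 : X) = q.2.1
    rw [mul_smul, ← hk, inv_smul_smul, h2]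
  · rintro ⟨⟨g, x⟩, hx⟩
    apply Subtype.ext
    apply Prod.ext
    · exact mul_inv_cancel_right _ _
    · rfl
  · rintro ⟨g, ⟨x, hx⟩⟩
    refine Sigma.ext ?_ ?_
    · exact inv_mul_cancel_right _ _
    · apply (Subtype.heq_iff_coe_eq ?_).2
      · rfl
      · intro y
        change (g * (k x)⁻¹ * k x) • y = y ↔ g • y = y
        rw [inv_mul_cancel_right]

/-- **Brauer's permutation lemma for orbits.** -/
theorem card_orbits_eq [Finite B] {X' : Type*} [MulAction B X'] [Finite X] [Finite X'] (b : X → X)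
    (hb : ∀ (g : B) (x : X), b (g • x) ∈ MulAction.orbit B (b x)) (b' : X' → X')
    (hb' : ∀ (g : B) (x : X'), b' (g • x) ∈ MulAction.orbit B (b' x))
    (h : ∀ g : B, Nat.card {x : X // g • b x = x} = Nat.card {x : X' // g • b' x = x}) :
    Nat.card (Quotient (MulAction.orbitRel B (st b hb))) = Nat.card (Quotient (MulAction.orbitRel B (st b' hb'))) := by
  classical
  have := Fintype.ofFinite B
  have key : ∀ {Z : Type _} [MulAction B Z] [Finite Z] (c : Z → Z),
      Nat.card {p : B × Z // p.1 • c p.2 = p.2} = ∑ g : B, Nat.card {x : Z // g • c x = x} := by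
    intro Z _ _ c
    rw [← Nat.card_sigma]
    exact Nat.card_congr
      { toFun := fun p => ⟨p.1.1, ⟨p.1.2, p.2⟩⟩
        invFun := fun q => ⟨(q.1, q.2.1), q.2.2⟩
        left_inv := fun _ => rfl
        right_inv := fun _ => rfl }
  have key' : ∀ {Z : Type _} [MulAction B Z] [Finite Z] (c : Z → Z),
      Nat.card {p : B × Z // p.1 • c p.2 = p.2} = ∑ g : B, Nat.card {x : Z // g • c x = x} := by
    intro Z _ _ c
    rw [← Nat.card_sigma]
    exact Nat.card_congr
      { toFun := fun p => ⟨p.1.1, ⟨p.1.2, p.2⟩⟩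
        invFun := fun q => ⟨(q.1, q.2.1), q.2.2⟩
        left_inv := fun _ => rfl
        right_inv := fun _ => rfl }
  have h1 := twisted_burnside b hb
  have h2 := twisted_burnside b' hb'
  rw [key] at h1
  rw [key'] at h2
  rw [Finset.sum_congr rfl fun g _ => h g, h2] at h1
  exact (Nat.eq_of_mul_eq_mul_right Nat.card_pos h1).symm

end burnside

section torus

variable {G : Type u} [Group G] {T N : Subgroup G}

/-- conjugation action of `N` on `T` -/
@[reducible] def actT (hN : N ≤ Subgroup.normalizer (T : Set G)) : MulAction N T where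
  smul x t := ⟨(x : G) * t * (x : G)⁻¹, (Subgroup.mem_normalizer_iff.1 (hN x.2) _).1 t.2⟩
  one_smul t := Subtype.ext (by
    change ((1 : N) : G) * t * ((1 : N) : G)⁻¹ = t
    simp)
  mul_smul x y t := Subtype.ext (by
    change ((x * y : N) : G) * t * ((x * y : N) : G)⁻¹ = (x : G) * ((y : G) * t * (y : G)⁻¹) * (x : G)⁻¹
    push_cast
    group)

/-- action of `N` on the characters of `T` -/
@[reducible] noncomputable def actC (hN : N ≤ Subgroup.normalizer (T : Set G)) : MulAction N (IrrCharacter T) where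
  smul x θ := ⟨(θ : T → ℂ) ∘ cT T x (hN x.2), isIrr_comp _ (cT_surj T _) θ.2⟩
  one_smul θ := Subtype.ext (by
    change (θ : T → ℂ) ∘ cT T ((1 : N) : G) _ = θ
    funext t
    rw [Function.comp_apply]
    refine congrArg (θ : T → ℂ) (Subtype.ext ?_)
    rw [cT_coe]
    simp)
  mul_smul x y θ := Subtype.ext (by
    change (θ : T → ℂ) ∘ cT T ((x * y : N) : G) _ = ((θ : T → ℂ) ∘ cT T y _) ∘ cT T x _
    funext t
    rw [Function.comp_apply, Function.comp_apply, Function.comp_apply]
    refine congrArg (θ : T → ℂ) (Subtype.ext ?_)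
    rw [cT_coe, cT_coe, cT_coe]
    push_cast
    group)

/-- Brauer's permutation lemma for an abelian group -/
theorem card_fixed_abel {A : Type*} [Group A] [Finite A] (hA : ∀ a b : A, a * b = b * a) (α : A ≃* A) :
    Nat.card {a : A // α a = a} = Nat.card {χ : IrrCharacter A // (χ : A → ℂ) ∘ α = (χ : A → ℂ)} := by
  rw [← Cfsg.Agent.S0173.result α]
  refine Nat.card_congr (Equiv.ofBijective
    (fun a : {a : A // α a = a} => (⟨ConjClasses.mk a.1, congrArg ConjClasses.mk a.2⟩ :
      {C : ConjClasses A // ConjClasses.map α.toMonoidHom C = C})) ?_)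
  have hconj : ∀ a b : A, IsConj a b → a = b := by
    intro a b hab
    obtain ⟨c, hc⟩ := isConj_iff.1 hab
    rw [← hc, hA c a, mul_inv_cancel_right]
  constructor
  · rintro ⟨a, ha⟩ ⟨b, hb⟩ e
    have e' : ConjClasses.mk a = ConjClasses.mk b := congrArg Subtype.val e
    exact Subtype.ext (hconj _ _ (ConjClasses.mk_eq_mk_iff_isConj.1 e'))
  · rintro ⟨C, hC⟩
    obtain ⟨a, rfl⟩ := ConjClasses.mk_surjective C
    have hC' : ConjClasses.mk (α a) = ConjClasses.mk a := hC
    exact ⟨⟨a, hconj _ _ (ConjClasses.mk_eq_mk_iff_isConj.1 hC')⟩, rfl⟩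

/-- the restriction of an automorphism to an invariant subgroup, as a homomorphism -/
def resT (β : MulAut G) (hT : ∀ x, x ∈ T ↔ β x ∈ T) : T ≃* T where
  toFun x := ⟨β x, (hT x).1 x.2⟩
  invFun x := ⟨β⁻¹ x, by
    rw [hT, MulAut.apply_inv_self]
    exact x.2⟩
  left_inv x := Subtype.ext (MulAut.inv_apply_self _ β (x : G))
  right_inv x := Subtype.ext (MulAut.apply_inv_self _ β (x : G))
  map_mul' x y := Subtype.ext (map_mul β (x : G) y)

@[simp] theorem resT_coe (β : MulAut G) (hT : ∀ x, x ∈ T ↔ β x ∈ T) (x : T) : (resT β hT x : G) = β x := rfl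

/-- **Elements and characters of an abelian group `T` with `β`-fixed `N`-orbits.** -/
theorem exists_fix_orb [Finite G] (hN : N ≤ Subgroup.normalizer (T : Set G)) (hab : ∀ a ∈ T, ∀ b ∈ T, a * b = b * a)
    (β : MulAut G) (hT : ∀ x, x ∈ T ↔ β x ∈ T) (hβ : ∀ x, x ∈ N ↔ β x ∈ N) {m : ℕ} (t : Fin m → T)
    (ht : ∀ i j, i ≠ j → ∀ x ∈ N, x * t i * x⁻¹ ≠ (t j : G))
    (hst : ∀ i, ∃ x ∈ N, x * t i * x⁻¹ = β (t i)) :
    ∃ lam : Fin m → T → ℂ, (∀ i, IsIrrCharacter T (lam i)) ∧
      (∀ i j, i ≠ j → ∀ x (hx : x ∈ N), lam i ≠ lam j ∘ cT T x (hN hx)) ∧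
      ∀ i, ∃ x, ∃ hx : x ∈ N, lam i ∘ resT β hT = lam i ∘ cT T x (hN hx) := by
  classical
  have : Finite (IrrCharacter T) := finite_irr
  let _ : MulAction N T := actT hN
  let _ : MulAction N (IrrCharacter T) := actC hN
  have hβ' : ∀ x, x ∈ N → β⁻¹ x ∈ N := fun x hx => by
    rw [hβ, MulAut.apply_inv_self]; exact hx
  let b : T → T := fun t => (resT β hT).symm t
  let b' : IrrCharacter T → IrrCharacter T := fun θ =>
    ⟨(θ : T → ℂ) ∘ (resT β hT), isIrr_comp (resT β hT).toMonoidHom (resT β hT).surjective θ.2⟩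
  have hbc : ∀ t : T, ((b t : T) : G) = β⁻¹ t := fun t => rfl
  have hsmul : ∀ (x : N) (t : T), ((x • t : T) : G) = (x : G) * t * (x : G)⁻¹ := fun _ _ => rfl
  have hsmul' : ∀ (x : N) (θ : IrrCharacter T), ((x • θ : IrrCharacter T) : T → ℂ) = (θ : T → ℂ) ∘ cT T x (hN x.2) :=
    fun _ _ => rfl
  have hb : ∀ (g : N) (x : T), b (g • x) ∈ MulAction.orbit N (b x) := by
    intro g x
    refine ⟨⟨β⁻¹ g, hβ' _ g.2⟩, ?_⟩
    apply Subtype.ext
    change β⁻¹ (g : G) * (b x : G) * (β⁻¹ (g : G))⁻¹ = (b (g • x) : G)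
    rw [hbc, hbc, hsmul, map_mul, map_mul, map_inv]
  have hb' : ∀ (g : N) (x : IrrCharacter T), b' (g • x) ∈ MulAction.orbit N (b' x) := by
    intro g θ
    refine ⟨⟨β⁻¹ g, hβ' _ g.2⟩, ?_⟩
    apply Subtype.ext
    change ((θ : T → ℂ) ∘ resT β hT) ∘ cT T (β⁻¹ (g : G)) _ = ((θ : T → ℂ) ∘ cT T g _) ∘ resT β hT
    funext t
    rw [Function.comp_apply, Function.comp_apply, Function.comp_apply, Function.comp_apply]
    refine congrArg (θ : T → ℂ) (Subtype.ext ?_)
    rw [cT_coe, resT_coe, resT_coe, cT_coe, map_mul, map_mul, map_inv, MulAut.apply_inv_self]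
  have hfix : ∀ g : N, Nat.card {x : T // g • b x = x} = Nat.card {x : IrrCharacter T // g • b' x = x} := by
    intro g
    let c : T ≃* T := resT (MulAut.conj (g : G)) (fun x => by
      rw [MulAut.conj_apply]
      exact Subgroup.mem_normalizer_iff.1 (hN g.2) x)
    let α : T ≃* T := (resT β hT).symm.trans c
    have h1 := card_fixed_abel (fun a b => Subtype.ext (hab a a.2 b b.2)) α
    have e1 : Nat.card {x : T // g • b x = x} = Nat.card {x : T // α x = x} :=
      Nat.card_congr (Equiv.subtypeEquivRight fun x => by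
        have : g • b x = α x := Subtype.ext rfl
        rw [this])
    have e2 : Nat.card {x : IrrCharacter T // g • b' x = x} =
        Nat.card {χ : IrrCharacter T // (χ : T → ℂ) ∘ α = (χ : T → ℂ)} := by
      refine Nat.card_congr (Equiv.subtypeEquivRight fun χ => ?_)
      have h2 : (g • b' χ : IrrCharacter T) = χ ↔ (χ : T → ℂ) ∘ α.symm = (χ : T → ℂ) := by
        rw [← Subtype.coe_inj, hsmul']
        change ((χ : T → ℂ) ∘ resT β hT) ∘ cT T g _ = _ ↔ _
        have h3 : ((χ : T → ℂ) ∘ resT β hT) ∘ cT T (g : G) (hN g.2) = (χ : T → ℂ) ∘ α.symm := by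
          funext t
          rw [Function.comp_apply, Function.comp_apply, Function.comp_apply]
          refine congrArg (χ : T → ℂ) (Subtype.ext ?_)
          change β (cT T (g : G) (hN g.2) t : G) = β ((MulAut.conj (g : G))⁻¹ (t : G))
          rw [cT_coe, ← map_inv, MulAut.conj_apply, inv_inv]
        rw [h3]
      rw [h2]
      constructor
      · intro h3
        conv_lhs => rw [← h3]
        funext t
        rw [Function.comp_apply, Function.comp_apply, MulEquiv.symm_apply_apply]
      · intro h3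
        conv_lhs => rw [← h3]
        funext t
        rw [Function.comp_apply, Function.comp_apply, MulEquiv.apply_symm_apply]
    rw [e1, e2, h1]
  have hcard := card_orbits_eq b hb b' hb' hfix
  -- the elements
  have hstb : ∀ i, t i ∈ st b hb := by
    intro i
    obtain ⟨x, hx, e⟩ := hst i
    refine ⟨⟨(β⁻¹ x)⁻¹, inv_mem (hβ' x hx)⟩, ?_⟩
    apply Subtype.ext
    change (β⁻¹ x)⁻¹ * (t i : G) * (β⁻¹ x)⁻¹⁻¹ = (b (t i) : G)
    rw [hbc]
    have h1 : β⁻¹ (x * t i * x⁻¹) = t i := by rw [e, MulAut.inv_apply_self]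
    rw [map_mul, map_mul, map_inv] at h1
    nth_rewrite 1 [← h1]
    group
  have hm : m ≤ Nat.card (Quotient (MulAction.orbitRel N (st b hb))) := by
    have h1 : Function.Injective fun i : Fin m =>
        (Quotient.mk (MulAction.orbitRel N (st b hb)) ⟨t i, hstb i⟩) := by
      intro i j e
      by_contra hij
      have h2 : (⟨t i, hstb i⟩ : st b hb) ∈ MulAction.orbit N (⟨t j, hstb j⟩ : st b hb) := Quotient.exact e
      obtain ⟨x, hx⟩ := h2
      have h3 : (x : G) * t j * (x : G)⁻¹ = t i := by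
        have h4 := congrArg (fun z : st b hb => ((z : T) : G)) hx
        exact h4
      exact ht j i (Ne.symm hij) x x.2 h3
    have : Finite (Quotient (MulAction.orbitRel N (st b hb))) := inferInstance
    have h2 := Nat.card_le_card_of_injective _ h1
    rwa [Nat.card_eq_fintype_card, Fintype.card_fin] at h2
  rw [hcard] at hm
  obtain ⟨θ, hθ⟩ := exists_reps (MulAction.orbitRel N (st b' hb')) hm
  refine ⟨fun i => ((θ i : IrrCharacter T) : T → ℂ), fun i => (θ i : IrrCharacter T).2, ?_, ?_⟩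
  · intro i j hij x hx e
    apply hθ i j hij
    refine ⟨⟨x, hx⟩, ?_⟩
    apply Subtype.ext
    apply Subtype.ext
    exact e.symm
  · intro i
    obtain ⟨x, hx⟩ := (θ i).2
    refine ⟨x, x.2, ?_⟩
    have h4 := congrArg (fun z : IrrCharacter T => (z : T → ℂ)) hx
    exact h4.symm

end torus

end Cfsg.Agent.H118.K547
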