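import Cfsg.Agent.H118.K547.Burn
import Cfsg.Agent.H307.QE.Defs
import Cfsg.Agent.H726.Four.Rgd
import Cfsg.Agent.Characters.Linear

/-!
# The principal series with an automorphism of 2-power order (helper118, TEAM K547, task QE3)

`R : RGD cs h 2 T n X`, `GG = ⊤`, `hN : Nrm R β σ`.

* `exists_os_const` : the parity lemma with an automorphism;
* `exists_os_lam` : `λ ∈ Irr(T)` with `λ ∘ β = λ ∘ w` gives an `OS β` character over `λ`;
* `os_of_lams` : `λ_i` pairwise not `N`-conjugate give distinct `OS β` characters (of type `∅`);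
* `os_of_elts` : the same from elements of the abelian group `T`; `gInv3_of_elts`;
* `fixed_of_node` : `t ∈ T ∩ M_i` of order three, inverted by `n i`, `T ∩ M_i` cyclic, `σ i = i`: `β t` is `N`-conjugate
  to `t`.
-/

set_option autoImplicit false
set_option linter.unusedSectionVars false

open scoped ComplexConjugate
open Cfsg

namespace Cfsg.Agent.H118.K547

open Cfsg.Agent.OddOrderCharacters.Clifford Cfsg.Agent.Characters Cfsg.Agent.H601.K4 Cfsg.Agent.H967.K4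
  Cfsg.Agent.H246.Dl Cfsg.Agent.H726.Four Cfsg.Agent.H618.Sigma Cfsg.Agent.H307.QE Cfsg.Agent.H821.K547
  Cfsg.Agent.H627.Gow
open CoxeterSystem Cfsg.Agent.ChevalleyStructure.CoxeterGeom Cfsg.Agent.Tits.Roots Cfsg.Agent.Tits.Core
  Cfsg.Agent.Tits.Exchange Cfsg.Agent.Nodes.Reps Cfsg.Agent.Nodes.BNOf Cfsg.Agent.Nodes.StabComb
  Cfsg.Agent.Nodes.Bruhat Cfsg.Agent.Nodes.OppDec Cfsg.Agent.Nodes.LeviDec Cfsg.Agent.H53.HC
  Cfsg.Agent.KFacts.RgdAut Cfsg.Agent.KFacts.RgdDiag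

universe u v w

section parity

variable {G : Type u} [Group G]

/-- **The parity lemma with an automorphism of 2-power order.** -/
theorem exists_os_const [Fintype G] {φ : MulAut G} {e : ℕ} (hφ : φ ^ 2 ^ e = 1) {Φ : G → ℂ} (hΦ : IsCharacter G Φ)
    {n : ℕ} (hn : Φ 1 = n) (ho : Odd n) (hs : SF Φ) (hinv : ∀ x, Φ (φ x) = Φ x) :
    ∃ χ : G → ℂ, OS φ χ ∧ classInner Φ χ ≠ 0 := by
  classical
  obtain ⟨k, hk⟩ := exists_cube G
  have : Finite (IrrCharacter G) := Core.finite_irr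
  have : Fintype (IrrCharacter G) := Fintype.ofFinite _
  obtain ⟨m, hm⟩ := Core.exists_nat_comb hΦ
  have hmi : ∀ χ : IrrCharacter G, classInner Φ (χ : G → ℂ) = m χ := fun χ => by
    rw [hm]; exact Core.classInner_sum_nsmul_irr m χ
  have hsig : ∀ χ : IrrCharacter G, m (sig hk χ) = m χ := by
    intro χ
    have h1 : classInner Φ (sig hk χ : G → ℂ) = classInner Φ (χ : G → ℂ) := by
      rw [Core.classInner_def, Core.classInner_def]
      congr 1
      refine Fintype.sum_bijective (fun g : G => g ^ k) (pow_bijective hk) _ _ fun g => ?_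
      rw [sig_apply, hs.apply_pow hk]
    rw [hmi, hmi] at h1
    exact_mod_cast h1
  -- the action of the automorphism
  let au : IrrCharacter G → IrrCharacter G := fun χ =>
    ⟨(χ : G → ℂ) ∘ φ, Core.isIrr_comp φ.toMonoidHom φ.surjective χ.2⟩
  have hau : ∀ (χ : IrrCharacter G) (x : G), (au χ : G → ℂ) x = (χ : G → ℂ) (φ x) := fun _ _ => rfl
  have haum : ∀ χ : IrrCharacter G, m (au χ) = m χ := by
    intro χ
    have h1 : classInner Φ (au χ : G → ℂ) = classInner Φ (χ : G → ℂ) := by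
      rw [Core.classInner_def, Core.classInner_def]
      congr 1
      refine Fintype.sum_bijective (fun g : G => φ g) φ.bijective _ _ fun g => ?_
      rw [hau, hinv]
    rw [hmi, hmi] at h1
    exact_mod_cast h1
  have haud : ∀ χ : IrrCharacter G, charDegree (au χ : G → ℂ) = charDegree (χ : G → ℂ) := by
    intro χ
    unfold charDegree
    rw [hau, map_one]
  have haui : ∀ (j : ℕ) (χ : IrrCharacter G) (x : G), (au^[j] χ : G → ℂ) x = (χ : G → ℂ) ((φ ^ j) x) := by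
    intro j
    induction j with
    | zero => intro χ x; rfl
    | succ j ih =>
      intro χ x
      rw [Function.iterate_succ_apply, ih, hau, ← MulAut.mul_apply, ← pow_succ']
  have hcomm : ∀ χ : IrrCharacter G, sig hk (au χ) = au (sig hk χ) := by
    intro χ
    apply Subtype.ext
    funext x
    rw [sig_apply, hau, hau, sig_apply, map_pow]
  -- the set of the constituents of odd degree and odd multiplicity
  let X : Type u := {χ : IrrCharacter G // Odd (m χ * charDegree (χ : G → ℂ))}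
  have hX : Odd (Fintype.card X) := by
    have h1 : (n : ℂ) = ((∑ χ : IrrCharacter G, m χ * charDegree (χ : G → ℂ) : ℕ) : ℂ) := by
      rw [← hn, hm]
      simp only [Finset.sum_apply, nsmul_eq_mul]
      push_cast
      refine Finset.sum_congr rfl fun χ _ => ?_
      change (m χ : ℂ) * (χ : G → ℂ) 1 = _
      rw [Cfsg.Agent.Blocks.Basic.irr_one_eq_charDegree χ.2]
    have h2 : n = ∑ χ : IrrCharacter G, m χ * charDegree (χ : G → ℂ) := by exact_mod_cast h1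
    rw [h2, Finset.odd_sum_iff_odd_card_odd] at ho
    rwa [Fintype.card_subtype]
  let f : Function.End X := fun x => ⟨sig hk x.1, by rw [hsig, charDegree_sig]; exact x.2⟩
  have hf1 : ∀ (j : ℕ) (x : X), ((f ^ j) x).1 = (sig hk)^[j] x.1 := by
    intro j
    induction j with
    | zero => intro x; rfl
    | succ j ih =>
      intro x
      rw [pow_succ]
      change ((f ^ j) (f x)).1 = _
      rw [ih, Function.iterate_succ_apply]
  obtain ⟨N, hN⟩ := hk.exists_iter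
  have hf : f ^ 2 ^ N = 1 := by
    funext x
    apply Subtype.ext
    rw [hf1]
    change _ = x.1
    refine Subtype.ext (funext fun g => ?_)
    rw [sig_iter, hN]
  have : Fact (Nat.Prime 2) := ⟨Nat.prime_two⟩
  have h3 := Equiv.Perm.card_fixedPoints_modEq (p := 2) hf
  have hX1 : Odd (Fintype.card f.fixedPoints) := by
    rw [Nat.odd_iff] at hX ⊢
    rw [← hX]
    exact h3.symm
  -- the second action
  have hfx : ∀ x : f.fixedPoints, sig hk x.1.1 = x.1.1 := fun x => congrArg Subtype.val (x.2 : f x.1 = x.1)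
  let g : Function.End f.fixedPoints := fun x => ⟨⟨au x.1.1, by rw [haum, haud]; exact x.1.2⟩, by
    change f _ = _
    apply Subtype.ext
    change sig hk (au x.1.1) = au x.1.1
    rw [hcomm, hfx]⟩
  have hg1 : ∀ (j : ℕ) (x : f.fixedPoints), ((g ^ j) x).1.1 = au^[j] x.1.1 := by
    intro j
    induction j with
    | zero => intro x; rfl
    | succ j ih =>
      intro x
      rw [pow_succ]
      change ((g ^ j) (g x)).1.1 = _
      rw [ih, Function.iterate_succ_apply]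
  have hg : g ^ 2 ^ e = 1 := by
    funext x
    apply Subtype.ext
    apply Subtype.ext
    rw [hg1]
    change _ = x.1.1
    refine Subtype.ext (funext fun y => ?_)
    rw [haui, hφ]
    rfl
  have h4 := Equiv.Perm.card_fixedPoints_modEq (p := 2) hg
  have h5 : Fintype.card g.fixedPoints ≠ 0 := by
    intro h0
    rw [h0] at h4
    have h5 : 2 ∣ Fintype.card f.fixedPoints := (Nat.modEq_zero_iff_dvd).1 h4
    exact (Nat.not_even_iff_odd.2 hX1) (even_iff_two_dvd.2 h5)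
  obtain ⟨⟨x, hx⟩⟩ := Fintype.card_pos_iff.1 (Nat.pos_of_ne_zero h5)
  have hx1 : au x.1.1 = x.1.1 := congrArg (fun z : f.fixedPoints => z.1.1) (hx : g x = x)
  have hodd := Nat.odd_mul.1 x.1.2
  refine ⟨(x.1.1 : G → ℂ), ⟨⟨x.1.1.2, fun h2 => (Nat.not_even_iff_odd.2 hodd.2) (even_iff_two_dvd.2 h2)⟩, ?_, ?_⟩, ?_⟩
  · exact SF.of_pow hk ((sig_eq_iff hk x.1.1).1 (hfx x))
  · intro y
    have := congrFun (congrArg Subtype.val hx1) y
    exact this
  · rw [hmi]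
    have := hodd.1.pos
    exact_mod_cast this.ne'

theorem indFun_aut [Fintype G] {H : Subgroup G} (θ θ' : H → ℂ) (α : MulAut G) (hα : ∀ x, x ∈ H ↔ α x ∈ H)
    (hθ : ∀ (x : H) (h : α x ∈ H), θ ⟨α x, h⟩ = θ' x) (g : G) : indFun H θ (α g) = indFun H θ' g := by
  rw [S0150.indFun_apply, S0150.indFun_apply]
  congr 1
  have h1 : ∀ z : G, extendByZero H θ (α z) = extendByZero H θ' z := by
    intro z
    by_cases hz : z ∈ H
    · rw [ext_apply_mem H θ _ ((hα z).1 hz), ext_apply_mem H θ' _ hz]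
      exact hθ ⟨z, hz⟩ _
    · rw [ext_apply_not_mem H θ _ (fun h => hz ((hα z).2 h)), ext_apply_not_mem H θ' _ hz]
  rw [← Equiv.sum_comp α.toEquiv]
  apply Finset.sum_congr rfl
  intro x _
  rw [← h1]
  congr 1
  change (α x)⁻¹ * α g * α x = _
  rw [map_mul, map_mul, map_inv]

end parity

section rgd

variable {I : Type v} {W : Type w} {Y : Type u} [Fintype I] [DecidableEq I] [Group W] [Group Y] {M : CoxeterMatrix I}
  {cs : CoxeterSystem M W} {A : I → I → ℤ} {h : IsCartan M A} {T : Subgroup Y} {n : I → Y}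
  {X : (I → ℤ) → Subgroup Y}

section base
variable (R : RGD cs h 2 T n X)

include R

/-- **The principal series of a root group datum.** -/
theorem exists_ts [Finite W] [Finite Y] (hG : GG cs h T X = ⊤)
    {c : ↥(RGD.Sup X (RGD.Pos cs h) ⊔ T) →* T}
    (hc : ∀ (v : Y) (hv : v ∈ RGD.Sup X (RGD.Pos cs h)) (m : T), c ⟨v * m, mul_mem_sup _ T hv m.2⟩ = m) :
    ∃ g : W → Y, TS 2 (RGD.Sup X (RGD.Pos cs h) ⊔ T) T c g ∧ ∀ w, Rp cs R.nsys w (g w) := by
  have hB : RGD.B cs h T X = RGD.Sup X (RGD.Pos cs h) ⊔ T := sup_comm _ _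
  choose g hg using exists_rp cs R.nsys
  refine ⟨g, ⟨le_sup_right, ?_, ?_, R.tcop, fun w => (hg w).mem_normalizer, ?_, ?_, ?_⟩, hg⟩
  · intro t ht
    have h1 := hc 1 (one_mem _) ⟨t, ht⟩
    rw [← h1]
    congr 1
    exact Subtype.ext (one_mul t).symm
  · rintro ⟨b, hb⟩ hb1
    obtain ⟨v, hv, m, hm, rfl⟩ := mem_sup _ T R.T_le_normalizer_U hb
    have h1 := hc v hv ⟨m, hm⟩
    rw [hb1] at h1
    have h2 : m = 1 := congrArg Subtype.val h1.symm
    obtain ⟨k, hk⟩ := R.isPGroup_Upos ⟨v, hv⟩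
    refine ⟨k, ?_⟩
    change (v * m) ^ 2 ^ k = 1
    rw [h2, mul_one]
    exact congrArg Subtype.val hk
  · intro x
    obtain ⟨w, b₁, hb₁, k, hk, b₂, hb₂, e⟩ := (mem_GG R).1 (show x ∈ GG cs h T X by rw [hG]; exact Subgroup.mem_top x)
    rw [hB] at hb₁ hb₂
    refine ⟨w, b₁, hb₁, (g w)⁻¹ * k * b₂, mul_mem (le_sup_right (a := RGD.Sup X (RGD.Pos cs h)) ((hg w).unique hk)) hb₂, ?_⟩
    rw [e]
    group
  · rintro w w' ⟨a, ha, b, hb, e⟩
    rw [← hB] at ha hb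
    have h1 : Cell R.nsys cs h X w (g w') := ⟨a, ha, g w, hg w, b, hb, e⟩
    exact Cell.unique R h1 (cell_of_rp (hg w'))
  · intro w w'
    exact ((hg w).mul (hg w')).unique (hg (w * w'))

theorem NN_le_normalizer : NN cs R.nsys ≤ Subgroup.normalizer (T : Set Y) := by
  rintro g ⟨w, hw⟩
  exact hw.mem_normalizer

end base

variable {R : RGD cs h 2 T n X} {β : MulAut Y} {σ : Equiv.Perm I}

theorem fixT' (hN : Nrm R β σ) : ∀ x, x ∈ T ↔ β x ∈ T := fun x => (hN.fixT x).symm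

/-- `β` permutes `N`. -/
theorem fixNN [Finite W] [Finite Y] (hN : Nrm R β σ) (hG : GG cs h T X = ⊤) :
    ∀ x, x ∈ NN cs R.nsys ↔ β x ∈ NN cs R.nsys := by
  have key : ∀ {γ : MulAut Y} {τ : Equiv.Perm I}, Nrm R γ τ → ∀ x, x ∈ NN cs R.nsys → γ x ∈ NN cs R.nsys := by
    rintro γ τ hγ x ⟨w, hw⟩
    exact ⟨_, hγ.diag.rp' (R := R) hγ.sym hw⟩
  intro x
  refine ⟨key hN x, fun hx => ?_⟩
  have h1 := key (hN.inv hG) _ hx
  rwa [MulAut.inv_apply_self] at h1

/-- **(a)** a `β`-stable Weyl orbit of a character of `T` -/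
theorem exists_os_lam [Finite W] [Finite Y] (hN : Nrm R β σ) (hG : GG cs h T X = ⊤)
    [Fintype (RGD.Sup X (RGD.Pos cs h))] [Fintype T] {lam : T → ℂ} (hl : IsIrrCharacter T lam) {x : Y}
    (hx : x ∈ NN cs R.nsys) (hst : lam ∘ resT β (fixT' hN) = lam ∘ cT T x (NN_le_normalizer R hx)) :
    ∃ χ : Y → ℂ, OS β χ ∧ ms (RGD.Sup X (RGD.Pos cs h)) T χ lam ≠ 0 := by
  classical
  have : Fintype Y := Fintype.ofFinite Y
  have hSB := sb_of_rgd R hG
  obtain ⟨c, hc⟩ := exists_proj (RGD.Sup X (RGD.Pos cs h)) T hSB.norm hSB.inf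
  obtain ⟨g, hTS, hg⟩ := exists_ts R hG hc
  have : Fintype ↥(RGD.Sup X (RGD.Pos cs h) ⊔ T) := Fintype.ofFinite _
  let B : Subgroup Y := RGD.Sup X (RGD.Pos cs h) ⊔ T
  have hθ := hSB.oddIrr hl
  have hlc : IsCharacter _ (lam ∘ c) := Core.isCharacter_comp c (Core.isIrr_isCharacter hl)
  have hΦ := Cfsg.Agent.S0148.result B _ hlc
  obtain ⟨d, hd⟩ : ∃ d : ℕ, lam 1 = d := Core.isCharacter_apply_one (Core.isIrr_isCharacter hl)
  have hdo : Odd d := by
    have h1 : charDegree lam = d := by rw [charDegree, hd]; simp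
    have h2 := hθ.2
    rw [h1] at h2
    rwa [← Nat.not_even_iff_odd, even_iff_two_dvd]
  have h1 : indFun B (lam ∘ c) 1 = ((B.index * d : ℕ) : ℂ) := by
    rw [Cfsg.Agent.OddOrderCharacters.IndRes.indFun_apply_one, Function.comp_apply, map_one, hd]
    push_cast
    rfl
  -- the invariance
  have hfB : ∀ y, y ∈ B ↔ β y ∈ B := by
    intro y
    have h2 := hN.fixB y
    have h3 : RGD.B cs h T X = B := sup_comm _ _
    rw [h3] at h2
    exact h2.symm
  obtain ⟨w, hw⟩ := hx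
  have hact : lam ∘ cT T x (NN_le_normalizer R ⟨w, hw⟩) = hTS.act w lam := by
    funext t
    rw [TS.act_apply, Function.comp_apply]
    have hs : (g w)⁻¹ * x ∈ T := (hg w).unique hw
    let s : T := ⟨(g w)⁻¹ * x, hs⟩
    have e : cT T x (NN_le_normalizer R ⟨w, hw⟩) t = s⁻¹ * cT T (g w) (hTS.norm w) t * s⁻¹⁻¹ := by
      apply Subtype.ext
      change x⁻¹ * (t : Y) * x = ((g w)⁻¹ * x)⁻¹ * ((g w)⁻¹ * t * g w) * ((g w)⁻¹ * x)⁻¹⁻¹
      group
    rw [e, Core.isIrr_isClassFunction hl]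
  have hinv : ∀ y, indFun B (lam ∘ c) (β y) = indFun B (lam ∘ c) y := by
    intro y
    have h2 : indFun B (lam ∘ c) (β y) = indFun B ((hTS.act w lam) ∘ c) y := by
      refine indFun_aut _ _ β hfB ?_ y
      rintro ⟨b, hb⟩ hb'
      rw [Function.comp_apply, Function.comp_apply, ← hact, ← hst, Function.comp_apply]
      congr 1
      apply Subtype.ext
      rw [resT_coe]
      exact hTS.sep_aut β (fun t ht => (fixT' hN t).1 ht) hb hb'
    have h3 : indFun B ((hTS.act w lam) ∘ c) = indFun B (lam ∘ c) := hTS.R_act hl w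
    rw [h2, h3]
  obtain ⟨e, he⟩ := hN.pow
  obtain ⟨χ, hχ, hne⟩ := exists_os_const he hΦ h1 (hSB.oddI.mul hdo) ((SF.of_odd hSB.oddT lam).comp c).ind hinv
  refine ⟨χ, hχ, ?_⟩
  have hne' : classInner (indFun (RGD.Sup X (RGD.Pos cs h) ⊔ T) (lam ∘ c)) χ ≠ 0 := hne
  rw [classInner_indFun _ _ _ (Core.isIrr_isClassFunction hχ.odd.1)] at hne'
  rw [ms_eq _ T hSB.norm hSB.inf hc]
  exact mul_ne_zero Core.card_ne_zero_complex (classInner_symm_ne hne')

/-- **(b)** distinct stable orbits on the characters of `T` -/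
theorem os_of_lams [Finite W] [Finite Y] (hN : Nrm R β σ) (hG : GG cs h T X = ⊤) {m : ℕ} (lam : Fin m → T → ℂ)
    (hl : ∀ i, IsIrrCharacter T (lam i))
    (hne : ∀ i j, i ≠ j → ∀ x (hx : x ∈ NN cs R.nsys), lam i ≠ lam j ∘ cT T x (NN_le_normalizer R hx))
    (hst : ∀ i, ∃ x, ∃ hx : x ∈ NN cs R.nsys, lam i ∘ resT β (fixT' hN) = lam i ∘ cT T x (NN_le_normalizer R hx)) :
    ∃ χ : Fin m → Y → ℂ, Function.Injective χ ∧ ∀ i, OS β (χ i) ∧ HT cs h X (χ i) ∅ := by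
  classical
  have : Fintype Y := Fintype.ofFinite Y
  have := Fintype.ofFinite (RGD.Sup X (RGD.Pos cs h))
  have := Fintype.ofFinite T
  have hSB := sb_of_rgd R hG
  have h1 : ∀ i, ∃ χ : Y → ℂ, OS β χ ∧ ms (RGD.Sup X (RGD.Pos cs h)) T χ (lam i) ≠ 0 := by
    intro i
    obtain ⟨x, hx, e⟩ := hst i
    exact exists_os_lam hN hG (hl i) hx e
  choose χ h2 h4 using h1
  refine ⟨χ, ?_, fun i => ⟨h2 i, H519.Dl.HT.empty (h2 i).odd.1
    (hasFix_of_ms _ T hSB.norm (h2 i).odd.1 (h4 i))⟩⟩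
  intro i j e
  by_contra hij
  obtain ⟨x, hx, e'⟩ := hSB.lam_conj (hl i) (hl j) (h2 i).odd.1 (h4 i) (by rw [e]; exact h4 j)
  exact hne i j hij x hx e'

/-- **(c)** distinct stable orbits on the elements of `T` -/
theorem os_of_elts [Finite W] [Finite Y] (hN : Nrm R β σ) (hG : GG cs h T X = ⊤)
    (hT : ∀ a ∈ T, ∀ b ∈ T, a * b = b * a) {m : ℕ} (t : Fin m → T)
    (ht : ∀ i j, i ≠ j → ∀ x ∈ NN cs R.nsys, x * t i * x⁻¹ ≠ (t j : Y))
    (hst : ∀ i, ∃ x ∈ NN cs R.nsys, x * t i * x⁻¹ = β (t i)) :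
    ∃ χ : Fin m → Y → ℂ, Function.Injective χ ∧ ∀ i, OS β (χ i) ∧ HT cs h X (χ i) ∅ := by
  obtain ⟨lam, h1, h2, h3⟩ := exists_fix_orb (NN_le_normalizer R) hT β (fixT' hN) (fixNN hN hG) t ht hst
  exact os_of_lams hN hG lam h1 h2 h3

/-- three `OS` characters, one of them trivial -/
theorem os_of_two_elts [Finite W] [Finite Y] (hN : Nrm R β σ) (hG : GG cs h T X = ⊤)
    (hT : ∀ a ∈ T, ∀ b ∈ T, a * b = b * a) {t₁ t₂ : Y} (h1 : t₁ ∈ T) (h2 : t₂ ∈ T) (hn1 : t₁ ≠ 1) (hn2 : t₂ ≠ 1)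
    (h12 : ∀ x ∈ NN cs R.nsys, x * t₁ * x⁻¹ ≠ t₂) (hs1 : ∃ x ∈ NN cs R.nsys, x * t₁ * x⁻¹ = β t₁)
    (hs2 : ∃ x ∈ NN cs R.nsys, x * t₂ * x⁻¹ = β t₂) :
    ∃ χ : Fin 3 → Y → ℂ, Function.Injective χ ∧ ∀ i, OS β (χ i) ∧ HT cs h X (χ i) ∅ := by
  have key : ∀ {a b : Y}, (∀ x ∈ NN cs R.nsys, x * a * x⁻¹ ≠ b) → ∀ x ∈ NN cs R.nsys, x * b * x⁻¹ ≠ a := by
    intro a b hab x hx e
    refine hab x⁻¹ (inv_mem hx) ?_
    rw [← e]
    group
  have k1 : ∀ {b : Y}, b ≠ 1 → ∀ x ∈ NN cs R.nsys, x * 1 * x⁻¹ ≠ b := fun hb x _ e => hb (by rw [← e]; group)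
  refine os_of_elts hN hG hT ![1, ⟨t₁, h1⟩, ⟨t₂, h2⟩] ?_ ?_
  · intro i j hij x hx
    fin_cases i <;> fin_cases j
    · exact absurd rfl hij
    · exact k1 hn1 x hx
    · exact k1 hn2 x hx
    · exact key (k1 hn1) x hx
    · exact absurd rfl hij
    · exact h12 x hx
    · exact key (k1 hn2) x hx
    · exact key h12 x hx
    · exact absurd rfl hij
  · intro i
    fin_cases i
    · exact ⟨1, one_mem _, by simp⟩
    · exact hs1
    · exact hs2

/-- `GInv3` from two elements of `T`. -/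
theorem gInv3_of_elts [Finite W] [Finite Y] (hN : Nrm R β σ) (hG : GG cs h T X = ⊤) (hC : H601.OddDeg.TwoC Y)
    (hT : ∀ a ∈ T, ∀ b ∈ T, a * b = b * a) {t₁ t₂ : Y} (h1 : t₁ ∈ T) (h2 : t₂ ∈ T) (hn1 : t₁ ≠ 1) (hn2 : t₂ ≠ 1)
    (h12 : ∀ x ∈ NN cs R.nsys, x * t₁ * x⁻¹ ≠ t₂) (hs1 : ∃ x ∈ NN cs R.nsys, x * t₁ * x⁻¹ = β t₁)
    (hs2 : ∃ x ∈ NN cs R.nsys, x * t₂ * x⁻¹ = β t₂) : GInv3 β := by
  obtain ⟨χ, h3, h4⟩ := os_of_two_elts hN hG hT h1 h2 hn1 hn2 h12 hs1 hs2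
  exact GInv3.of_os hC (h4 0).1 (h4 1).1 (h4 2).1 (fun e => absurd (h3 e) (by decide))
    (fun e => absurd (h3 e) (by decide)) (fun e => absurd (h3 e) (by decide))

/-- `GInv3` from two stable characters of `T`. -/
theorem gInv3_of_lams [Finite W] [Finite Y] (hN : Nrm R β σ) (hG : GG cs h T X = ⊤) (hC : H601.OddDeg.TwoC Y)
    {l₁ l₂ : T → ℂ} (hl1 : IsIrrCharacter T l₁) (hl2 : IsIrrCharacter T l₂) (hn1 : l₁ ≠ 1) (hn2 : l₂ ≠ 1)
    (h12 : ∀ x (hx : x ∈ NN cs R.nsys), l₁ ≠ l₂ ∘ cT T x (NN_le_normalizer R hx))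
    (hs1 : ∃ x, ∃ hx : x ∈ NN cs R.nsys, l₁ ∘ resT β (fixT' hN) = l₁ ∘ cT T x (NN_le_normalizer R hx))
    (hs2 : ∃ x, ∃ hx : x ∈ NN cs R.nsys, l₂ ∘ resT β (fixT' hN) = l₂ ∘ cT T x (NN_le_normalizer R hx)) :
    GInv3 β := by
  have hinv : ∀ (f g : T → ℂ) (x : Y) (hx : x ∈ NN cs R.nsys), f = g ∘ cT T x (NN_le_normalizer R hx) →
      g = f ∘ cT T x⁻¹ (NN_le_normalizer R (inv_mem hx)) := by
    intro f g x hx e
    rw [e]
    funext t
    rw [Function.comp_apply, Function.comp_apply]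
    refine congrArg g (Subtype.ext ?_)
    rw [cT_coe, cT_coe]
    group
  have hone : ∀ (x : Y) (hx : x ∈ NN cs R.nsys), (1 : T → ℂ) ∘ cT T x (NN_le_normalizer R hx) = 1 := fun _ _ => rfl
  obtain ⟨χ, h3, h4⟩ := os_of_lams hN hG ![1, l₁, l₂] (by
    intro i
    fin_cases i
    · exact Core.isIrr_one
    · exact hl1
    · exact hl2) (by
    intro i j hij x hx
    fin_cases i <;> fin_cases j
    · exact absurd rfl hij
    · intro e
      exact hn1 ((hinv _ _ x hx e).trans (hone _ (inv_mem hx)))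
    · intro e
      exact hn2 ((hinv _ _ x hx e).trans (hone _ (inv_mem hx)))
    · intro e
      exact hn1 (e.trans (hone x hx))
    · exact absurd rfl hij
    · exact h12 x hx
    · intro e
      exact hn2 (e.trans (hone x hx))
    · intro e
      exact h12 _ (inv_mem hx) (hinv _ _ x hx e)
    · exact absurd rfl hij) (by
    intro i
    fin_cases i
    · exact ⟨1, one_mem _, rfl⟩
    · exact hs1
    · exact hs2)
  exact GInv3.of_os hC (h4 0).1 (h4 1).1 (h4 2).1 (fun e => absurd (h3 e) (by decide))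
    (fun e => absurd (h3 e) (by decide)) (fun e => absurd (h3 e) (by decide))

/-- **(a)** for a linear character -/
theorem exists_os_hom [Finite W] [Finite Y] (hN : Nrm R β σ) (hG : GG cs h T X = ⊤)
    [Fintype (RGD.Sup X (RGD.Pos cs h))] [Fintype T] (l : T →* ℂˣ) {x : Y} (hx : x ∈ NN cs R.nsys)
    (hst : ∀ t : T, l (resT β (fixT' hN) t) = l (cT T x (NN_le_normalizer R hx) t)) :
    ∃ χ : Y → ℂ, OS β χ ∧ ms (RGD.Sup X (RGD.Pos cs h)) T χ (fun t => (l t : ℂ)) ≠ 0 :=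
  exists_os_lam hN hG (Linear.isIrrCharacter_hom l) hx (funext fun t => congrArg Units.val (hst t))

/-- `GInv3` from two stable linear characters of `T`. -/
theorem gInv3_of_homs [Finite W] [Finite Y] (hN : Nrm R β σ) (hG : GG cs h T X = ⊤) (hC : H601.OddDeg.TwoC Y)
    (l₁ l₂ : T →* ℂˣ) (hn1 : l₁ ≠ 1) (hn2 : l₂ ≠ 1)
    (h12 : ∀ x (hx : x ∈ NN cs R.nsys), ∃ t : T, l₁ t ≠ l₂ (cT T x (NN_le_normalizer R hx) t))
    (hs1 : ∃ x, ∃ hx : x ∈ NN cs R.nsys, ∀ t : T, l₁ (resT β (fixT' hN) t) = l₁ (cT T x (NN_le_normalizer R hx) t))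
    (hs2 : ∃ x, ∃ hx : x ∈ NN cs R.nsys, ∀ t : T, l₂ (resT β (fixT' hN) t) = l₂ (cT T x (NN_le_normalizer R hx) t)) :
    GInv3 β := by
  have hne : ∀ {l : T →* ℂˣ}, l ≠ 1 → (fun t => (l t : ℂ)) ≠ 1 := by
    intro l hl e
    apply hl
    ext t
    exact congrFun e t
  refine gInv3_of_lams hN hG hC (Linear.isIrrCharacter_hom l₁) (Linear.isIrrCharacter_hom l₂) (hne hn1) (hne hn2)
    ?_ ?_ ?_
  · intro x hx e
    obtain ⟨t, ht⟩ := h12 x hx
    exact ht (Units.ext (congrFun e t))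
  · obtain ⟨x, hx, e⟩ := hs1
    exact ⟨x, hx, funext fun t => congrArg Units.val (e t)⟩
  · obtain ⟨x, hx, e⟩ := hs2
    exact ⟨x, hx, funext fun t => congrArg Units.val (e t)⟩

/-! ### (d) -/

theorem hat_one (hσ : σ = 1) (hs : ∀ i j, M (σ i) (σ j) = M i j) (w : W) : hat cs σ hs w = w := by
  obtain ⟨ω, rfl⟩ := cs.wordProd_surjective w
  induction ω with
  | nil => rw [wordProd_nil, map_one]
  | cons i ω ih =>
    rw [wordProd_cons, map_mul, hat_simple, ih, hσ]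
    rfl

/-- `β` commutes with the action of the Weyl group on `T` if it fixes all nodes. -/
theorem conj_comm [Finite W] (hN : Nrm R β σ) (hσ : σ = 1) (hT : ∀ a ∈ T, ∀ b ∈ T, a * b = b * a) {x : Y}
    (hx : x ∈ NN cs R.nsys) {t : Y} (ht : t ∈ T) : β (x * t * x⁻¹) = x * β t * x⁻¹ := by
  obtain ⟨w, hw⟩ := hx
  have h1 := hN.diag.rp' (R := R) hN.sym hw
  rw [hat_one hσ] at h1
  have h2 := hT _ (hw.unique h1) _ ((fixT' hN t).1 ht)
  rw [map_mul, map_mul, map_inv]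
  calc β x * β t * (β x)⁻¹ = x * (x⁻¹ * β x * β t) * (β x)⁻¹ := by group
    _ = x * β t * x⁻¹ := by rw [h2]; group

/-- the same for a simple reflection with `σ i = i` -/
theorem conj_comm_simple [Finite W] (hN : Nrm R β σ) {i : I} (hi : σ i = i) (hT : ∀ a ∈ T, ∀ b ∈ T, a * b = b * a)
    {t : Y} (ht : t ∈ T) : β (n i * t * (n i)⁻¹) = n i * β t * (n i)⁻¹ := by
  have h1 := hN.diag.rp (R := R) i
  rw [hi] at h1
  have h2 := hT _ ((rp_simple cs R.nsys i).unique h1) _ ((fixT' hN t).1 ht)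
  rw [map_mul, map_mul, map_inv]
  calc β (n i) * β t * (β (n i))⁻¹ = n i * ((n i)⁻¹ * β (n i) * β t) * (β (n i))⁻¹ := by group
    _ = n i * β t * (n i)⁻¹ := by rw [h2]; group

/-- `β` is a power map on a cyclic group `T ∩ M_K`. -/
theorem exists_zpow [Finite W] [Finite Y] (hN : Nrm R β σ) (hG : GG cs h T X = ⊤) {K : Set I} (hK : σ '' K = K)
    (hcyc : IsCyclic ↥(T ⊓ MJ cs h X K)) : ∃ k : ℤ, ∀ t ∈ T, t ∈ MJ cs h X K → β t = t ^ k := by
  have hD : Fix β (T ⊓ MJ cs h X K) := hN.fixT.inf (hN.fixMJ hG hK)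
  obtain ⟨k, hk⟩ := MonoidHom.map_cyclic (rAut β hD).toMonoidHom
  refine ⟨k, fun t ht htM => ?_⟩
  have h1 := congrArg Subtype.val (hk ⟨t, ht, htM⟩)
  rw [SubgroupClass.coe_zpow] at h1
  exact h1

/-- an element of order three of `T ∩ M_i`, inverted by `n i`, generating the only subgroup of order three -/
theorem fixed_of_mem_zpowers [Finite W] (_hN : Nrm R β σ) {i : I} {t : Y} (h3 : t ^ 3 = 1)
    (h1 : t ≠ 1) (hz : β t ∈ Subgroup.zpowers t) (hinv : n i * t * (n i)⁻¹ = t⁻¹) :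
    ∃ x ∈ NN cs R.nsys, x * t * x⁻¹ = β t := by
  obtain ⟨k, hk⟩ := Subgroup.mem_zpowers_iff.1 hz
  have hk3 : t ^ (3 : ℤ) = 1 := by exact_mod_cast h3
  have hr : t ^ (k % 3) = β t := by
    rw [← hk]
    conv_rhs => rw [← Int.emod_add_mul_ediv k 3, zpow_add, zpow_mul, hk3, one_zpow, mul_one]
  have hb : 0 ≤ k % 3 ∧ k % 3 < 3 := ⟨Int.emod_nonneg _ (by norm_num), Int.emod_lt_of_pos _ (by norm_num)⟩
  obtain h0 | h0 | h0 : k % 3 = 0 ∨ k % 3 = 1 ∨ k % 3 = 2 := by omega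
  · exfalso
    rw [h0, zpow_zero] at hr
    exact h1 ((map_eq_one_iff β β.injective).1 hr.symm)
  · rw [h0, zpow_one] at hr
    exact ⟨1, one_mem _, by rw [← hr]; group⟩
  · rw [h0] at hr
    refine ⟨n i, ⟨cs.simple i, rp_simple cs R.nsys i⟩, ?_⟩
    rw [hinv, ← hr]
    have : t ^ (2 : ℤ) * t = 1 := by
      rw [← zpow_add_one]
      exact hk3
    exact (eq_inv_of_mul_eq_one_left this).symm

/-- **(d)** -/
theorem fixed_of_node [Finite W] [Finite Y] (hN : Nrm R β σ) (hG : GG cs h T X = ⊤) {i : I} (hi : σ i = i)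
    (hcyc : IsCyclic ↥(T ⊓ MJ cs h X {i})) {t : Y} (ht : t ∈ T) (htM : t ∈ MJ cs h X {i}) (h3 : t ^ 3 = 1)
    (h1 : t ≠ 1) (hinv : n i * t * (n i)⁻¹ = t⁻¹) : ∃ x ∈ NN cs R.nsys, x * t * x⁻¹ = β t := by
  obtain ⟨k, hk⟩ := exists_zpow hN hG (K := {i}) (by rw [Set.image_singleton, hi]) hcyc
  exact fixed_of_mem_zpowers hN h3 h1 (by rw [hk t ht htM]; exact zpow_mem (Subgroup.mem_zpowers t) k) hinv

/-- `β t ∈ ⟨t⟩` if `⟨t⟩` is the only subgroup of its order of `T ∩ M_i` -/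
theorem mem_zpowers_of_unique [Finite W] [Finite Y] (hN : Nrm R β σ) (hG : GG cs h T X = ⊤) {i : I} (hi : σ i = i)
    {l : ℕ} (hu : ∀ s ∈ T, s ∈ MJ cs h X {i} → s ^ l = 1 → ∀ t ∈ T, t ∈ MJ cs h X {i} → t ^ l = 1 → t ≠ 1 →
      s ∈ Subgroup.zpowers t) {t : Y} (ht : t ∈ T) (htM : t ∈ MJ cs h X {i}) (hl : t ^ l = 1) (h1 : t ≠ 1) :
    β t ∈ Subgroup.zpowers t := by
  have hM : Fix β (MJ cs h X {i}) := hN.fixMJ hG (by rw [Set.image_singleton, hi])
  exact hu _ ((fixT' hN t).1 ht) ((hM t).2 htM) (by rw [← map_pow, hl, map_one]) t ht htM hl h1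

/-- stable elements: products of stable elements, `σ = 1` -/
theorem stable_conj [Finite W] (hN : Nrm R β σ) (hσ : σ = 1) (hT : ∀ a ∈ T, ∀ b ∈ T, a * b = b * a) {t x : Y}
    (ht : t ∈ T) (hx : x ∈ NN cs R.nsys) (hs : ∃ y ∈ NN cs R.nsys, y * t * y⁻¹ = β t) :
    ∃ y ∈ NN cs R.nsys, y * (x * t * x⁻¹) * y⁻¹ = β (x * t * x⁻¹) := by
  obtain ⟨y, hy, e⟩ := hs
  refine ⟨x * y * x⁻¹, mul_mem (mul_mem hx hy) (inv_mem hx), ?_⟩
  rw [conj_comm hN hσ hT hx ht, ← e]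
  group

end rgd

end Cfsg.Agent.H118.K547
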